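import Cfsg.Agent.KnownA.G2Sing.Torus

/-!
# The characters of an element of order `q² + q + 1` of the torus are separated
-/

set_option autoImplicit false

universe u

namespace Cfsg.Agent.KnownA.G2Sing

/-- coefficient of `1` in the exponents, using `q² ≡ -1 - q` -/
def eA : Fin 12 → ℤ := ![-2, -1, -1, -1, 0, -1, 1, 0, 1, 1, 1, 2]

/-- coefficient of `q` in the exponents -/
def eB : Fin 12 → ℤ := ![-1, -2, -1, 0, -1, 1, -1, 1, 0, 1, 2, 1]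

theorem exponent_data : ∀ r s : Fin 12,
    (|eA r - eA s| ≤ 4 ∧ |eB r - eB s| ≤ 4 ∧ (eA r - eA s = 0 → eB r - eB s = 0 → r = s)) ∧
    (|eA r| ≤ 4 ∧ |eB r| ≤ 4 ∧ ¬ (eA r = 0 ∧ eB r = 0)) := by decide +kernel

theorem exponent_small : ∀ q : Fin 2, ∀ r s : Fin 12,
    let n : ℤ := (q : ℤ) + 3
    ((n ^ 2 + n + 1) ∣ (eA r - eA s) + (eB r - eB s) * n → r = s) ∧
    ¬ (n ^ 2 + n + 1) ∣ eA r + eB r * n := by decide +kernel

theorem not_dvd_large {q : ℤ} (hq : 5 ≤ q) {a b : ℤ} (ha : |a| ≤ 4) (hb : |b| ≤ 4)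
    (h : (q ^ 2 + q + 1) ∣ a + b * q) : a = 0 ∧ b = 0 := by
  have hb1 : |b * q| ≤ 4 * q := by
    rw [abs_mul, abs_of_pos (show (0 : ℤ) < q by omega)]
    exact mul_le_mul_of_nonneg_right hb (by omega)
  have hlt : |a + b * q| < q ^ 2 + q + 1 := by
    have h1 := abs_add_le a (b * q)
    nlinarith
  have h0 := Int.eq_zero_of_abs_lt_dvd h hlt
  have hb0 : b = 0 := by
    by_contra hne
    have h1 : q ≤ |b * q| := by
      rw [abs_mul, abs_of_pos (show (0 : ℤ) < q by omega)]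
      exact le_mul_of_one_le_left (by omega) (Int.one_le_abs hne)
    rw [show b * q = -a by linarith, abs_neg] at h1
    omega
  subst hb0
  exact ⟨by linarith, rfl⟩

theorem exponent_sep {q : ℕ} (hq : 3 ≤ q) (r s : Fin 12) :
    (((q ^ 2 + q + 1 : ℕ) : ℤ) ∣ (eA r - eA s) + (eB r - eB s) * (q : ℤ) → r = s) ∧
      ¬ ((q ^ 2 + q + 1 : ℕ) : ℤ) ∣ eA r + eB r * (q : ℤ) := by
  push_cast
  rcases (by omega : q = 3 ∨ q = 4 ∨ 5 ≤ q) with rfl | rfl | h5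
  · simpa using exponent_small 0 r s
  · simpa using exponent_small 1 r s
  · obtain ⟨⟨a1, b1, e1⟩, a2, b2, e2⟩ := exponent_data r s
    exact ⟨fun h => by obtain ⟨x, y⟩ := not_dvd_large (by omega) a1 b1 h; exact e1 x y,
      fun h => e2 (not_dvd_large (by omega) a2 b2 h)⟩

variable {K : Type u} [Field K]

theorem chi_powers {μ : K} {q : ℕ} (hμ : μ ^ (q ^ 2 + q + 1) = 1) (s : Fin 12) :
    chi ![μ, μ ^ q, μ ^ (q ^ 2)] (s : ℕ) = μ ^ (eA s + eB s * (q : ℤ)) := by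
  have h0 : μ ≠ 0 := by
    intro h
    rw [h, zero_pow (by positivity)] at hμ
    exact zero_ne_one hμ
  have h2 : μ ^ (q ^ 2) = μ⁻¹ * (μ ^ q)⁻¹ := by
    rw [← mul_inv]
    apply eq_inv_of_mul_eq_one_left
    rw [← hμ, ← pow_succ', ← pow_add]
    congr 1
  rw [zpow_add₀ h0, mul_comm (eB s), zpow_mul, zpow_natCast, h2]
  have hq0 : μ ^ q ≠ 0 := pow_ne_zero _ h0
  simp only [chi, s.isLt, dif_pos, Fin.eta]
  generalize μ ^ q = ν at hq0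
  fin_cases s <;> simp [wt, pos, eA, eB, zpow_ofNat] <;> field_simp

theorem torus_sep {μ : K} {q : ℕ} (hq : 3 ≤ q) (hμ : IsPrimitiveRoot μ (q ^ 2 + q + 1)) :
    (∀ r < 12, chi ![μ, μ ^ q, μ ^ (q ^ 2)] r ≠ 1) ∧
      ∀ r < 12, ∀ r' < 12, chi ![μ, μ ^ q, μ ^ (q ^ 2)] r = chi ![μ, μ ^ q, μ ^ (q ^ 2)] r' → r = r' := by
  have h0 : μ ≠ 0 := hμ.ne_zero (by positivity)
  constructor
  · intro r hr h
    have := chi_powers hμ.pow_eq_one ⟨r, hr⟩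
    rw [h, eq_comm, hμ.zpow_eq_one_iff_dvd] at this
    exact (exponent_sep hq ⟨r, hr⟩ ⟨r, hr⟩).2 this
  · intro r hr r' hr' h
    have e1 := chi_powers hμ.pow_eq_one ⟨r, hr⟩
    have e2 := chi_powers hμ.pow_eq_one ⟨r', hr'⟩
    rw [h, e2] at e1
    have e3 : μ ^ ((eA ⟨r, hr⟩ + eB ⟨r, hr⟩ * (q : ℤ)) - (eA ⟨r', hr'⟩ + eB ⟨r', hr'⟩ * (q : ℤ))) = 1 := by
      rw [zpow_sub₀ h0, e1, div_self (zpow_ne_zero _ h0)]
    rw [hμ.zpow_eq_one_iff_dvd] at e3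
    exact congrArg Fin.val ((exponent_sep hq ⟨r, hr⟩ ⟨r', hr'⟩).1 (by convert e3 using 1; ring))

end Cfsg.Agent.KnownA.G2Sing
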