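import Cfsg.Agent.Suzuki.ReeRep
import Cfsg.Agent.Linear.Transvection

/-!
# `SL₃` inside the adjoint group of type `G₂`, through the long roots
-/

set_option autoImplicit false

universe u

namespace Cfsg.Agent.KnownA.G2Sing

open Cfsg.Lie Cfsg.Agent.Chev Cfsg.Agent.Suzuki
open scoped Matrix Kronecker MatrixGroups

/-- the coordinates of `(3×3 matrices) ⊕ W ⊕ W*` -/
abbrev J : Type := (Fin 3 × Fin 3) ⊕ (Fin 3 ⊕ Fin 3)

/-- where the root vectors go -/
def pos : Fin 12 → J :=
  ![.inl (2, 0), .inl (2, 1), .inr (.inl 2), .inr (.inr 0), .inr (.inr 1), .inl (1, 0), .inl (0, 1),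
    .inr (.inl 1), .inr (.inl 0), .inr (.inr 2), .inl (1, 2), .inl (0, 2)]

/-- the long root of an off-diagonal position -/
def lroot : Fin 3 → Fin 3 → ℕ := ![![12, 6, 11], ![5, 12, 10], ![0, 1, 12]]

/-- the basis vectors in the big space -/
def B0 : Matrix J chevG2.Idx ℤ := Matrix.of fun j x =>
  match x with
  | .inl k => if j = .inl (0, 0) then (if k.val = 0 then -1 else 1)
      else if j = .inl (1, 1) then (if k.val = 0 then 2 else -1)
      else if j = .inl (2, 2) then (if k.val = 0 then -1 else 0) else 0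
  | .inr s => if j = pos s then 1 else 0

/-- coordinates read off the big space -/
def C0 : Matrix chevG2.Idx J ℤ := Matrix.of fun x j =>
  match x with
  | .inl k => if j = .inl (2, 2) then -1 else if j = .inl (0, 0) ∧ k.val = 1 then 1 else 0
  | .inr s => if j = pos s then 1 else 0

/-- the trace -/
def tauJ : J → ℤ := Sum.elim (fun p => if p.1 = p.2 then 1 else 0) (fun _ => 0)

/-- the complement of the trace-zero space -/
def uJ : J → ℤ := fun j => if j = .inl (1, 1) then 1 else 0

theorem C0_mul_B0 : C0 * B0 = 1 := by decide +kernel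

theorem one_sub_B0C0 : 1 - B0 * C0 = Matrix.vecMulVec uJ tauJ := by decide +kernel

theorem tau_B0 : Matrix.vecMul tauJ B0 = 0 := by decide +kernel

section ring

variable {R : Type*} [CommRing R]

/-- integer matrix into the ring -/
def castM (R : Type*) [CommRing R] {a b : Type*} (M : Matrix a b ℤ) : Matrix a b R := M.map (Int.castRingHom R)

theorem cM_mul {a b c : Type*} [Fintype b] (M : Matrix a b ℤ) (N : Matrix b c ℤ) :
    castM R (M * N) = castM R M * castM R N := Matrix.map_mul

theorem cM_one {a : Type*} [DecidableEq a] : castM R (1 : Matrix a a ℤ) = 1 :=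
  Matrix.map_one _ (map_zero _) (map_one _)

/-- the action on the big space -/
def big (g : Matrix (Fin 3) (Fin 3) R) : Matrix J J R :=
  Matrix.fromBlocks (g ⊗ₖ (Matrix.adjugate g)ᵀ) 0 0 (Matrix.fromBlocks g 0 0 (Matrix.adjugate g)ᵀ)

theorem big_mul (g h : Matrix (Fin 3) (Fin 3) R) : big (g * h) = big g * big h := by
  simp [big, Matrix.fromBlocks_multiply, Matrix.mul_kronecker_mul, Matrix.adjugate_mul_distrib,
    Matrix.transpose_mul]

theorem big_one : big (1 : Matrix (Fin 3) (Fin 3) R) = 1 := by
  simp [big, Matrix.fromBlocks_one]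

theorem tau_big (g : Matrix (Fin 3) (Fin 3) R) :
    Matrix.vecMul (fun j => ((tauJ j : ℤ) : R)) (big g) = fun j => g.det * ((tauJ j : ℤ) : R) := by
  funext j
  rcases j with ⟨c, e⟩ | j
  · have h := congrFun (congrFun (Matrix.adjugate_mul g) e) c
    rw [Matrix.mul_apply] at h
    simp only [Matrix.vecMul, dotProduct, Fintype.sum_sum_type, Fintype.sum_prod_type, big, tauJ]
    simp [ite_mul, Matrix.kronecker_apply]
    simp [Matrix.smul_apply, Matrix.one_apply] at h
    rw [show (∑ x, g x c * g.adjugate e x) = ∑ x, g.adjugate e x * g x c from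
      Finset.sum_congr rfl fun x _ => mul_comm _ _, h]
    simp [eq_comm]
  · simp [Matrix.vecMul, dotProduct, Fintype.sum_sum_type, big, tauJ]

/-- the embedding of the matrix monoid -/
def phi (g : Matrix (Fin 3) (Fin 3) R) : Matrix chevG2.Idx chevG2.Idx R :=
  castM R C0 * big g * castM R B0

theorem key_proj (g : Matrix (Fin 3) (Fin 3) R) :
    castM R B0 * (castM R C0 * (big g * castM R B0)) = big g * castM R B0 := by
  have h0 : (1 : Matrix J J R) - castM R B0 * castM R C0 =
      Matrix.vecMulVec (fun j => ((uJ j : ℤ) : R)) (fun j => ((tauJ j : ℤ) : R)) := by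
    rw [← cM_mul, ← cM_one]
    ext i j
    simpa [castM, Matrix.vecMulVec, Matrix.one_apply, apply_ite (Int.cast : ℤ → R)] using congrArg (Int.castRingHom R) (congrFun (congrFun one_sub_B0C0 i) j)
  have h1 : Matrix.vecMul (fun j => ((tauJ j : ℤ) : R)) (castM R B0) = 0 := by
    funext x
    have := congrArg (Int.castRingHom R) (congrFun tau_B0 x)
    simpa [Matrix.vecMul, dotProduct, castM] using this
  have h2 : ((1 : Matrix J J R) - castM R B0 * castM R C0) * (big g * castM R B0) = 0 := by
    rw [h0, Matrix.vecMulVec_mul, ← Matrix.vecMul_vecMul, tau_big,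
      show (fun j => g.det * ((tauJ j : ℤ) : R)) = g.det • fun j => ((tauJ j : ℤ) : R) from rfl,
      Matrix.smul_vecMul, h1, smul_zero]
    ext i j
    simp [Matrix.vecMulVec]
  rw [Matrix.sub_mul, Matrix.one_mul, sub_eq_zero] at h2
  rw [← Matrix.mul_assoc, ← h2]

theorem phi_mul (g h : Matrix (Fin 3) (Fin 3) R) : phi (g * h) = phi g * phi h := by
  simp only [phi, big_mul, Matrix.mul_assoc]
  rw [key_proj]

theorem phi_one : phi (1 : Matrix (Fin 3) (Fin 3) R) = 1 := by
  rw [phi, big_one, Matrix.mul_one, ← cM_mul, C0_mul_B0, cM_one]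

/-- the embedding as a homomorphism -/
def phiHom : Matrix (Fin 3) (Fin 3) R →* Matrix chevG2.Idx chevG2.Idx R where
  toFun := phi
  map_one' := phi_one
  map_mul' := phi_mul

theorem phi_map {S : Type*} [CommRing S] (f : R →+* S) (g : Matrix (Fin 3) (Fin 3) R) :
    (phi g).map f = phi (g.map f) := by
  have hc : ∀ {a b : Type} (M : Matrix a b ℤ), (castM R M).map f = castM S M := fun M => by
    ext i j; simp [castM]
  have hb : (big g).map f = big (g.map f) := by
    have hadj : (Matrix.adjugate g).map f = Matrix.adjugate (g.map f) := f.map_adjugate g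
    rw [big, big, ← hadj, Matrix.fromBlocks_map, Matrix.fromBlocks_map]
    congr 1 <;> try exact Matrix.map_zero _ (map_zero f)
    · ext i j; simp [Matrix.kronecker_apply]
    · congr 1 <;> exact Matrix.map_zero _ (map_zero f)
  rw [phi, phi, Matrix.map_mul, Matrix.map_mul, hb, hc, hc]

/-- the coordinates of `W` -/
def omega : Fin 3 → chevG2.Idx := ![.inr ⟨8, by decide⟩, .inr ⟨7, by decide⟩, .inr ⟨2, by decide⟩]

theorem omega_data : ∀ i : Fin 3, (∀ j, C0 (omega i) j = if j = .inr (.inl i) then 1 else 0) ∧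
    (∀ j, B0 j (omega i) = if j = .inr (.inl i) then 1 else 0) := by decide +kernel

theorem phi_omega (g : Matrix (Fin 3) (Fin 3) R) (i j : Fin 3) : phi g (omega i) (omega j) = g i j := by
  simp only [phi, Matrix.mul_apply, castM, Matrix.map_apply, (omega_data i).1, (omega_data j).2]
  simp [apply_ite (Int.cast : ℤ → R), big]

/-- first order part of a root transvection -/
def N1 (i j : Fin 3) : Matrix J J ℤ :=
  Matrix.fromBlocks (Matrix.single i j 1 ⊗ₖ 1 - 1 ⊗ₖ (Matrix.single i j 1)ᵀ) 0 0
    (Matrix.fromBlocks (Matrix.single i j 1) 0 0 (-(Matrix.single i j 1)ᵀ))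

/-- second order part of a root transvection -/
def N2 (i j : Fin 3) : Matrix J J ℤ :=
  Matrix.fromBlocks (-(Matrix.single i j 1 ⊗ₖ (Matrix.single i j 1)ᵀ)) 0 0 0

theorem big_transvection {i j : Fin 3} (hij : i ≠ j) (t : R) :
    big (Matrix.transvection i j t) = 1 + t • castM R (N1 i j) + t ^ 2 • castM R (N2 i j) := by
  have hinv : Matrix.transvection i j t * Matrix.transvection i j (-t) = 1 := by
    rw [Matrix.transvection_mul_transvection_same i j hij, add_neg_cancel, Matrix.transvection_zero]
  have hadj : Matrix.adjugate (Matrix.transvection i j t) = Matrix.transvection i j (-t) := by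
    calc Matrix.adjugate (Matrix.transvection i j t)
        = Matrix.adjugate (Matrix.transvection i j t) *
            (Matrix.transvection i j t * Matrix.transvection i j (-t)) := by rw [hinv, Matrix.mul_one]
      _ = _ := by rw [← Matrix.mul_assoc, Matrix.adjugate_mul, Matrix.det_transvection_of_ne i j hij,
            one_smul, Matrix.one_mul]
  rw [big, hadj]
  ext a b
  rcases a with ⟨a₁, a₂⟩ | a | a <;> rcases b with ⟨b₁, b₂⟩ | b | b <;>
    simp [N1, N2, castM, Matrix.transvection, Matrix.one_apply, Matrix.single_apply, Matrix.kronecker_apply] <;>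
    split_ifs <;> simp_all <;> ring

theorem long_data : ∀ i j : Fin 3, i ≠ j →
    C0 * N1 i j * B0 = Matrix.of (fun a b => Ree.coeffA (lroot i j) 1 a b) ∧
    C0 * N2 i j * B0 = Matrix.of (fun a b => Ree.coeffA (lroot i j) 2 a b) ∧
    Matrix.of (fun a b => Ree.coeffA (lroot i j) 3 a b) = (0 : Matrix chevG2.Idx chevG2.Idx ℤ) ∧
    lroot i j < 12 := by decide +kernel

end ring

variable {F : Type u} [Field F]

theorem phi_transvection {i j : Fin 3} (hij : i ≠ j) (t : F) :
    phi (Matrix.transvection i j t) = chevG2.x F (lroot i j) t := by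
  obtain ⟨h1, h2, h3, hlt⟩ := long_data i j hij
  have e : phi (Matrix.transvection i j t) =
      1 + t • castM F (C0 * N1 i j * B0) + t ^ 2 • castM F (C0 * N2 i j * B0) := by
    rw [phi, big_transvection hij]
    simp only [Matrix.mul_add, Matrix.add_mul, Matrix.mul_one, Matrix.mul_smul, Matrix.smul_mul, cM_mul]
    rw [← cM_mul, C0_mul_B0, cM_one]
  rw [e, h1, h2]
  ext a b
  have h3' : Ree.coeffA (lroot i j) 3 a b = 0 := congrFun (congrFun h3 a) b
  rw [Ree.x_entry hlt]
  simp only [Finset.sum_range_succ, Finset.sum_range_zero, h3', Matrix.add_apply, Matrix.smul_apply,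
    Matrix.one_apply, castM, Matrix.map_apply, Matrix.of_apply, smul_eq_mul, Int.cast_zero, mul_zero]
  simp
  ring

/-- the embedding on units -/
def phiU : GL (Fin 3) F →* GL chevG2.Idx F := Units.map (phiHom (R := F))

theorem coe_phiU (g : GL (Fin 3) F) : (phiU g : Matrix chevG2.Idx chevG2.Idx F) = phi (g : Matrix (Fin 3) (Fin 3) F) :=
  rfl

theorem phiU_injective : Function.Injective (phiU (F := F)) := by
  intro g h e
  apply Units.ext
  ext i j
  rw [← phi_omega (g : Matrix (Fin 3) (Fin 3) F) i j, ← coe_phiU, e, coe_phiU, phi_omega]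

theorem phiU_mem (g : Matrix.SpecialLinearGroup (Fin 3) F) :
    phiU (Matrix.SpecialLinearGroup.toGL g) ∈ chevG2.group F := by
  induction g using Cfsg.Agent.Linear.transvection_induction with
  | ht i j h c =>
    rw [show phiU (Matrix.SpecialLinearGroup.toGL (Matrix.SpecialLinearGroup.transvection h c)) =
      Ree.cG.xu (lroot i j) c from Units.ext ?_]
    · exact Ree.cG.xu_mem_group _ _
    · rw [coe_phiU, Ree.cG.coe_xu, ← phi_transvection h c]
      rfl
  | hmul A B hA hB =>
    rw [map_mul, map_mul]
    exact mul_mem hA hB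

end Cfsg.Agent.KnownA.G2Sing
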