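import Cfsg.Agent.KnownA.G2Sing.Arith
import Mathlib.FieldTheory.Finite.Extension

/-!
# A self-centralizing cyclic subgroup of order `q² + q + 1` in `G₂(q)`
-/

set_option autoImplicit false

universe u v

namespace Cfsg.Agent.KnownA.G2Sing

open Cfsg.Lie Cfsg.Agent.Chev Cfsg.Agent.Suzuki
open scoped Matrix MatrixGroups

section singer

variable {F : Type u} [Field F] [Fintype F] {K : Type v} [Field K] [Algebra F K] [Fintype K]

/-- the powers of the Frobenius map -/
noncomputable def frob (k : ℕ) : K →ₐ[F] K := (FiniteField.frobeniusAlgHom F K) ^ k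

theorem frob_apply (k : ℕ) (x : K) : frob (F := F) k x = x ^ (Fintype.card F) ^ k := by
  induction k generalizing x with
  | zero => simp [frob]
  | succ k ih =>
    rw [frob, pow_succ', AlgHom.mul_apply, ← frob, ih, FiniteField.coe_frobeniusAlgHom]
    simp only [← pow_mul, ← pow_succ]

variable (b : Module.Basis (Fin 3) F K)

/-- the matrix of conjugates of the basis -/
noncomputable def conjMat : Matrix (Fin 3) (Fin 3) K := Matrix.of fun k i => frob (F := F) (k : ℕ) (b i)

theorem conjMat_mul (x : K) : conjMat b * (Algebra.leftMulMatrix b x).map (algebraMap F K) =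
    Matrix.diagonal (fun k : Fin 3 => frob (F := F) (k : ℕ) x) * conjMat b := by
  ext k j
  rw [Matrix.diagonal_mul, Matrix.mul_apply]
  simp only [conjMat, Matrix.of_apply, Matrix.map_apply]
  rw [← map_mul]
  have e : x * b j = ∑ i, Algebra.leftMulMatrix b x i j • b i := by
    simp only [Algebra.leftMulMatrix_eq_repr_mul]
    exact (b.sum_repr (x * b j)).symm
  rw [e, map_sum]
  exact Finset.sum_congr rfl fun i _ => by rw [map_smul, Algebra.smul_def, mul_comm]

theorem conjMat_det (hK : Fintype.card K = (Fintype.card F) ^ 3) : (conjMat b).det ≠ 0 := by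
  intro h
  obtain ⟨c, hc, hv⟩ := Matrix.exists_vecMul_eq_zero_iff.mpr h
  apply hc
  have hq : 2 ≤ Fintype.card F := Fintype.one_lt_card
  have hall : ∀ x : K, c 0 * x + c 1 * x ^ Fintype.card F + c 2 * x ^ (Fintype.card F) ^ 2 = 0 := by
    intro x
    have e : ∑ k : Fin 3, c k * frob (F := F) (k : ℕ) x = 0 := by
      rw [← b.sum_repr x]
      simp only [map_sum, Finset.mul_sum]
      rw [Finset.sum_comm]
      refine Finset.sum_eq_zero fun i _ => ?_
      have : ∑ k : Fin 3, c k * conjMat b k i = 0 := congrFun hv i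
      calc ∑ k : Fin 3, c k * frob (F := F) (k : ℕ) (b.repr x i • b i)
          = b.repr x i • ∑ k : Fin 3, c k * conjMat b k i := by
            rw [Finset.smul_sum]
            exact Finset.sum_congr rfl fun k _ => by rw [map_smul, mul_smul_comm]; rfl
        _ = 0 := by rw [this, smul_zero]
    simpa [Fin.sum_univ_three, frob_apply] using e
  let P : Polynomial K := Polynomial.C (c 0) * Polynomial.X + Polynomial.C (c 1) * Polynomial.X ^ Fintype.card F +
    Polynomial.C (c 2) * Polynomial.X ^ (Fintype.card F) ^ 2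
  have hdeg : P.natDegree ≤ (Fintype.card F) ^ 2 := by
    have h1 : (Fintype.card F) ≤ (Fintype.card F) ^ 2 := Nat.le_self_pow (by norm_num) _
    simp only [P]
    compute_degree <;> simp [h1] <;> omega
  have hP : P = 0 := by
    refine Polynomial.eq_zero_of_natDegree_lt_card_of_eval_eq_zero P Function.injective_id (fun x => ?_) ?_
    · simpa [P] using hall x
    · rw [hK]
      exact lt_of_le_of_lt hdeg (Nat.pow_lt_pow_right (by omega) (by norm_num))
  have hne : Fintype.card F ≠ (Fintype.card F) ^ 2 := by nlinarith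
  have hne0 : 1 ≠ Fintype.card F := by omega
  have hne2 : 1 ≠ (Fintype.card F) ^ 2 := by nlinarith
  funext k
  fin_cases k
  · simpa [P, Polynomial.coeff_X, Polynomial.coeff_X_pow, hne0, hne2] using
      congrArg (fun p => Polynomial.coeff p 1) hP
  · simpa [P, Polynomial.coeff_X, Polynomial.coeff_X_pow, hne, hne0] using
      congrArg (fun p => Polynomial.coeff p (Fintype.card F)) hP
  · have h3 := congrArg (fun p => Polynomial.coeff p ((Fintype.card F) ^ 2)) hP
    simp only [P, Polynomial.coeff_add, Polynomial.coeff_C_mul, Polynomial.coeff_X, Polynomial.coeff_X_pow,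
      Polynomial.coeff_zero] at h3
    rw [if_neg hne2, if_neg hne.symm] at h3
    simpa using h3

theorem eq_leftMul_of_commute {Z : Matrix (Fin 3) (Fin 3) F} {l : K} (hl : l ∉ (algebraMap F K).range)
    (hfin : Module.finrank F K = 3) (hc : Z * Algebra.leftMulMatrix b l = Algebra.leftMulMatrix b l * Z) :
    ∃ x : K, Z = Algebra.leftMulMatrix b x := by
  have hall : ∀ x : K, Z * Algebra.leftMulMatrix b x = Algebra.leftMulMatrix b x * Z := by
    have : FiniteDimensional F K := FiniteDimensional.of_finrank_eq_succ hfin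
    have hso := IntermediateField.isSimpleOrder_of_finrank_prime F K (hfin ▸ Nat.prime_three)
    suffices key : ∀ x ∈ Algebra.adjoin F ({l} : Set K),
        Z * Algebra.leftMulMatrix b x = Algebra.leftMulMatrix b x * Z by
      intro x
      refine key x ?_
      rw [← IntermediateField.adjoin_simple_toSubalgebra_of_isAlgebraic (Algebra.IsAlgebraic.isAlgebraic l)]
      rcases hso.eq_bot_or_eq_top (IntermediateField.adjoin F {l}) with h | h
      · rw [IntermediateField.adjoin_simple_eq_bot_iff, IntermediateField.mem_bot] at h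
        exact absurd h hl
      · rw [h]; trivial
    intro x hx'
    induction hx' using Algebra.adjoin_induction with
    | mem y hy => rw [Set.mem_singleton_iff] at hy; rw [hy]; exact hc
    | algebraMap r => rw [AlgHom.commutes]; exact (Algebra.commutes r Z).symm
    | add y z _ _ hy hz => rw [map_add, Matrix.mul_add, Matrix.add_mul, hy, hz]
    | mul y z _ _ hy hz => rw [map_mul, ← Matrix.mul_assoc, hy, Matrix.mul_assoc, hz, Matrix.mul_assoc]
  refine ⟨b.equivFun.symm (Z *ᵥ b.equivFun 1), ?_⟩
  set x0 := b.equivFun.symm (Z *ᵥ b.equivFun 1)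
  apply Matrix.ext_of_mulVec_single
  intro i
  have hrep : ∀ y, Z *ᵥ b.repr y = Algebra.leftMulMatrix b x0 *ᵥ b.repr y := by
    intro y
    have h1 : Algebra.leftMulMatrix b y *ᵥ b.repr 1 = b.repr y := by
      rw [Algebra.leftMulMatrix_mulVec_repr, mul_one]
    have h2 : Z *ᵥ b.repr 1 = b.repr x0 := by
      show _ = b.equivFun x0
      rw [LinearEquiv.apply_symm_apply]; rfl
    rw [← h1, Matrix.mulVec_mulVec, hall, ← Matrix.mulVec_mulVec, h2, h1,
      Algebra.leftMulMatrix_mulVec_repr, Algebra.leftMulMatrix_mulVec_repr, mul_comm]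
  simpa [Finsupp.single_eq_pi_single] using hrep (b i)

end singer

theorem exists_singer {F : Type u} [Field F] [Fintype F] {q : ℕ} (hF : Fintype.card F = q) (hq : 3 ≤ q) :
    ∃ H : Subgroup ↥(chevG2.group F), IsCyclic ↥H ∧ Nat.card ↥H = q ^ 2 + q + 1 ∧
      Subgroup.centralizer (H : Set ↥(chevG2.group F)) = H := by
  classical
  obtain ⟨p, hp⟩ := CharP.exists F
  have : Fact p.Prime := ⟨CharP.char_is_prime F p⟩
  let K := FiniteField.Extension F p 3
  have : Fintype K := Fintype.ofFinite K
  have hK : Fintype.card K = (Fintype.card F) ^ 3 := by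
    rw [← Nat.card_eq_fintype_card, FiniteField.natCard_extension, Nat.card_eq_fintype_card]
  have hfin : Module.finrank F K = 3 := FiniteField.finrank_extension F p 3
  let b : Module.Basis (Fin 3) F K := Module.finBasisOfFinrankEq F K hfin
  set m := q ^ 2 + q + 1 with hm
  obtain ⟨g, hg⟩ := IsCyclic.exists_generator (α := Kˣ)
  have hgo : orderOf g = q ^ 3 - 1 := by
    rw [orderOf_eq_card_of_forall_mem_zpowers hg, Nat.card_units, Nat.card_eq_fintype_card, hK, hF]
  have hq3 : (q - 1) * m = q ^ 3 - 1 := by
    obtain ⟨r, rfl⟩ : ∃ r, q = r + 1 := ⟨q - 1, by omega⟩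
    rw [hm, Nat.add_sub_cancel]
    apply Nat.eq_sub_of_add_eq
    ring
  have hprimg : IsPrimitiveRoot (g : K) (q ^ 3 - 1) :=
    (hgo ▸ IsPrimitiveRoot.orderOf g).map_of_injective (f := Units.coeHom K) Units.val_injective
  set l : K := (g : K) ^ (q - 1) with hl
  have hlp : IsPrimitiveRoot l m :=
    hprimg.pow (by have : 2 ≤ q ^ 3 := le_trans (by omega) (Nat.le_self_pow (by norm_num) q); omega) hq3.symm
  have hfr : ∀ (k : ℕ) (x : K), frob (F := F) k x = x ^ q ^ k := fun k x => by rw [frob_apply, hF]
  have hdiag : (fun k : Fin 3 => frob (F := F) (k : ℕ) l) = ![l, l ^ q, l ^ q ^ 2] := by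
    funext k; fin_cases k <;> simp [hfr]
  set U0 := conjMat b with hU0
  have hU0d : U0.det ≠ 0 := conjMat_det b hK
  set U : Matrix (Fin 3) (Fin 3) K := Matrix.diagonal ![U0.det⁻¹, 1, 1] * U0 with hU
  have hUd : U.det = 1 := by
    rw [hU, Matrix.det_mul, Matrix.det_diagonal, Fin.prod_univ_three]
    simp
    exact inv_mul_cancel₀ hU0d
  let S : Matrix (Fin 3) (Fin 3) F := Algebra.leftMulMatrix b l
  set dl : Fin 3 → K := ![l, l ^ q, l ^ q ^ 2] with hdl
  have hUS : U * S.map (algebraMap F K) = Matrix.diagonal dl * U := by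
    rw [hU, Matrix.mul_assoc, hU0, conjMat_mul b l, hdiag, ← Matrix.mul_assoc, ← Matrix.mul_assoc,
      Matrix.diagonal_mul_diagonal, Matrix.diagonal_mul_diagonal]
    congr 2
    funext i
    exact mul_comm _ _
  have hdld : dl 0 * dl 1 * dl 2 = 1 := by
    rw [← hlp.pow_eq_one, hm]
    simp [hdl]
    ring
  have hnorm : ∀ x : K, algebraMap F K (Algebra.leftMulMatrix b x).det = x ^ m := fun x => by
    have := congrArg Matrix.det (conjMat_mul b x)
    rw [Matrix.det_mul, Matrix.det_mul, Matrix.det_diagonal, mul_comm] at this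
    have e := mul_right_cancel₀ hU0d this
    rw [RingHom.map_det, RingHom.mapMatrix_apply, e, Fin.prod_univ_three, hfr, hfr, hfr, hm]
    simp
    ring
  have hSd : S.det = 1 := (algebraMap F K).injective (by rw [hnorm, hlp.pow_eq_one, map_one])
  let sS : Matrix.SpecialLinearGroup (Fin 3) F := ⟨S, hSd⟩
  let sU : Matrix.SpecialLinearGroup (Fin 3) K := ⟨U, hUd⟩
  let h : ↥(chevG2.group F) := ⟨phiU (Matrix.SpecialLinearGroup.toGL sS), phiU_mem sS⟩
  let Fh : Matrix.SpecialLinearGroup (Fin 3) F →* ↥(chevG2.group F) :=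
    (phiU.comp Matrix.SpecialLinearGroup.toGL).codRestrict _ phiU_mem
  have hFh : Function.Injective Fh := fun a c e => by
    have := phiU_injective (congrArg Subtype.val e)
    exact Matrix.SpecialLinearGroup.toGL_injective this
  have hord : orderOf h = m := by
    have e1 : orderOf h = orderOf sS := orderOf_injective Fh hFh sS
    have e2 : orderOf sS = orderOf S :=
      (orderOf_injective (⟨⟨fun A => (A : Matrix (Fin 3) (Fin 3) F), rfl⟩, fun _ _ => rfl⟩ :
        Matrix.SpecialLinearGroup (Fin 3) F →* Matrix (Fin 3) (Fin 3) F) Subtype.val_injective sS).symm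
    have e3 : orderOf S = orderOf l :=
      orderOf_injective (Algebra.leftMulMatrix b).toRingHom.toMonoidHom (Algebra.leftMulMatrix_injective b) l
    rw [e1, e2, e3, ← hlp.eq_orderOf]
  refine ⟨Subgroup.zpowers h, inferInstance, by rw [Nat.card_zpowers, hord], le_antisymm ?_ ?_⟩
  · intro y hy
    have hyc : h * y = y * h := Subgroup.mem_centralizer_iff.mp hy h (Subgroup.mem_zpowers h)
    let C : Cert.{0} chevG2 := certG2
    let CF : Cert.{u} chevG2 := certG2
    let mapG := Matrix.GeneralLinearGroup.map (n := chevG2.Idx) (algebraMap F K)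
    have hmem : ∀ z ∈ chevG2.group F, mapG z ∈ chevG2.group K := by
      intro z hz
      rw [CF.group_eq_closure] at hz
      induction hz using Subgroup.closure_induction with
      | mem x hx =>
        obtain ⟨r, -, t, rfl⟩ := hx
        rw [show mapG (CF.xu r t) = C.xu r (algebraMap F K t) from
          Units.ext (Ree.x_map (algebraMap F K) r t)]
        exact C.xu_mem_group _ _
      | one => rw [map_one]; exact one_mem _
      | mul x w _ _ hx hw => rw [map_mul]; exact mul_mem hx hw
      | inv x _ hx => rw [map_inv]; exact inv_mem hx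
    let gU : GL chevG2.Idx K := phiU (Matrix.SpecialLinearGroup.toGL sU)
    let t : GL chevG2.Idx K := gU * mapG h * gU⁻¹
    have htD : (t : Matrix chevG2.Idx chevG2.Idx K) = phi (Matrix.diagonal dl) := by
      have e : (gU * mapG h : GL chevG2.Idx K).val = phi (Matrix.diagonal dl) * gU.val := by
        show phi U * (phi S).map (algebraMap F K) = phi (Matrix.diagonal dl) * phi U
        rw [phi_map, ← phi_mul, hUS, phi_mul]
      show (gU * mapG h * gU⁻¹ : GL chevG2.Idx K).val = _
      rw [Units.val_mul, e, Matrix.mul_assoc, ← Units.val_mul, mul_inv_cancel, Units.val_one, Matrix.mul_one]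
    have htmem : t ∈ chevG2.diagonalSubgroup K := (diagonal_iff C).mpr ⟨dl, hdld, htD⟩
    have hconj : ∀ r < chevG2.nroots, ∀ s, t * C.xu r s * t⁻¹ = C.xu r (chi dl r * s) := by
      intro r hr s
      obtain ⟨χ, hχ, -, e⟩ := C.diagonal_char htmem
      have hval : χ r = chi dl r := by
        rw [htD, phi_diagonal hdld] at e
        have := congrFun (congrFun e (Sum.inr ⟨r, hr⟩)) (Sum.inr ⟨r, hr⟩)
        simpa [dMat] using this.symm
      have : t * C.xu r s = C.xu r (χ r * s) * t := Units.ext (by
        rw [Units.val_mul t, Units.val_mul (C.xu r (χ r * s)) t, C.coe_xu, C.coe_xu, e, C.dMat_conj hχ hr s])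
      rw [this, mul_inv_cancel_right, hval]
    obtain ⟨hs1, hs2⟩ := torus_sep (μ := l) hq hlp
    let y' : GL chevG2.Idx K := gU * mapG y * gU⁻¹
    have hy' : y' ∈ chevG2.group K :=
      mul_mem (mul_mem (phiU_mem sU) (hmem _ y.2)) (inv_mem (phiU_mem sU))
    have hcomm : t * y' = y' * t := by
      have e : mapG (h : GL chevG2.Idx F) * mapG y = mapG y * mapG (h : GL chevG2.Idx F) := by
        rw [← map_mul, ← map_mul]
        exact congrArg mapG (congrArg Subtype.val hyc)
      calc t * y' = gU * (mapG (h : GL chevG2.Idx F) * mapG y) * gU⁻¹ := by simp only [t, y']; group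
        _ = gU * (mapG y * mapG (h : GL chevG2.Idx F)) * gU⁻¹ := by rw [e]
        _ = _ := by simp only [t, y']; group
    obtain ⟨d, hd, hyd⟩ := (diagonal_iff C).mp
      (mem_diagonal_of_commute C coxG2 htmem hconj hs1 hs2 hy' hcomm)
    let Ui : Matrix (Fin 3) (Fin 3) K := ((sU⁻¹ : Matrix.SpecialLinearGroup (Fin 3) K) :
      Matrix (Fin 3) (Fin 3) K)
    have hUi : Ui * U = 1 := by
      show ((sU⁻¹ * sU : Matrix.SpecialLinearGroup (Fin 3) K) : Matrix (Fin 3) (Fin 3) K) = 1
      rw [inv_mul_cancel]; rfl
    have hUi' : U * Ui = 1 := mul_eq_one_comm.mp hUi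
    let Z : Matrix (Fin 3) (Fin 3) K := Ui * Matrix.diagonal d * U
    have hZ : ((mapG y : GL chevG2.Idx K) : Matrix chevG2.Idx chevG2.Idx K) = phi Z := by
      have e : mapG (y : GL chevG2.Idx F) = gU⁻¹ * y' * gU := by simp only [y']; group
      have ei : (gU⁻¹ : GL chevG2.Idx K).val = phi Ui := by
        apply Units.inv_eq_of_mul_eq_one_right
        show phi U * phi Ui = 1
        rw [← phi_mul, hUi', phi_one]
      rw [e, Units.val_mul, Units.val_mul, ei, hyd]
      show phi Ui * _ * phi U = _
      rw [← phi_mul, ← phi_mul]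
    let z : Matrix (Fin 3) (Fin 3) F :=
      Matrix.of fun i j => (y : GL chevG2.Idx F).val (omega i) (omega j)
    have hzZ : z.map (algebraMap F K) = Z := by
      ext i j
      rw [← phi_omega Z i j, ← hZ]
      rfl
    have hyz : (y : GL chevG2.Idx F).val = phi z := by
      apply Matrix.map_injective (algebraMap F K).injective
      show ((mapG y : GL chevG2.Idx K) : Matrix chevG2.Idx chevG2.Idx K) = (phi z).map (algebraMap F K)
      rw [hZ, phi_map, hzZ]
    have hzd : z.det = 1 := by
      apply (algebraMap F K).injective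
      rw [RingHom.map_det, RingHom.mapMatrix_apply, hzZ, map_one]
      simp only [Z, Matrix.det_mul, Matrix.det_diagonal, Fin.prod_univ_three, hd, hUd]
      rw [mul_one, mul_one]
      exact (sU⁻¹).2
    have hzc : z * S = S * z := by
      apply Matrix.map_injective (algebraMap F K).injective
      show (z * S).map (algebraMap F K) = (S * z).map (algebraMap F K)
      rw [Matrix.map_mul, Matrix.map_mul, hzZ]
      have hS' : S.map (algebraMap F K) = Ui * Matrix.diagonal dl * U := by
        rw [Matrix.mul_assoc, ← hUS, ← Matrix.mul_assoc, hUi, Matrix.one_mul]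
      rw [hS']
      simp only [Z, Matrix.mul_assoc]
      simp only [← Matrix.mul_assoc U Ui, hUi', Matrix.one_mul]
      rw [← Matrix.mul_assoc (Matrix.diagonal d), ← Matrix.mul_assoc (Matrix.diagonal dl),
        Matrix.diagonal_mul_diagonal, Matrix.diagonal_mul_diagonal]
      simp [mul_comm]
    have hlr : l ∉ (algebraMap F K).range := by
      rintro ⟨a, ha⟩
      have ha1 : a ^ q = a := hF ▸ FiniteField.pow_card a
      have h1 : l ^ q = l := by rw [← ha, ← map_pow, ha1]
      have h2 := hlp.pow_inj (i := q) (j := 1) (by rw [hm]; nlinarith) (by rw [hm]; nlinarith)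
        (by rw [h1, pow_one])
      omega
    obtain ⟨x, hx⟩ := eq_leftMul_of_commute b hlr hfin hzc
    have hxm : x ^ m = 1 := by rw [← hnorm, ← hx, hzd, map_one]
    have : NeZero m := ⟨by rw [hm]; omega⟩
    obtain ⟨i, -, hi⟩ := hlp.eq_pow_of_pow_eq_one hxm
    refine Subgroup.mem_zpowers_iff.mpr ⟨(i : ℤ), ?_⟩
    apply Subtype.ext
    apply Units.ext
    rw [zpow_natCast, SubgroupClass.coe_pow, Units.val_pow_eq_pow_val, hyz, hx, ← hi, map_pow]
    show (phiHom S) ^ i = phiHom (S ^ i)
    rw [map_pow]
  · exact Subgroup.le_centralizer (Subgroup.zpowers h)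

end Cfsg.Agent.KnownA.G2Sing
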