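import Cfsg.Agent.KnownA.G2Sing.Embed
import Cfsg.Agent.Chev.Bruhat
import Cfsg.Agent.Chev.CoxCheck

/-!
# The diagonal torus of `G₂` and the centralizer of a regular element of it
-/

set_option autoImplicit false

universe u

namespace Cfsg.Agent.KnownA.G2Sing

open Cfsg.Lie Cfsg.Agent.Chev Cfsg.Agent.Suzuki
open scoped Matrix Kronecker MatrixGroups

section general

variable {D : ChevalleyDatum} {F : Type u} [Field F]

/-- An element of `G` commuting with a diagonal element of separating character is diagonal. -/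
theorem mem_diagonal_of_commute (C : Cert.{u} D) {M : CoxeterMatrix (Fin D.rank)} (hM : CoxOK D M)
    {t y : GL D.Idx F} (ht : t ∈ D.diagonalSubgroup F) {χ : ℕ → F}
    (hconj : ∀ r < D.nroots, ∀ s, t * C.xu r s * t⁻¹ = C.xu r (χ r * s))
    (hne : ∀ r < D.nroots, χ r ≠ 1) (hinj : ∀ r < D.nroots, ∀ r' < D.nroots, χ r = χ r' → r = r')
    (hy : y ∈ D.group F) (hc : t * y = y * t) : y ∈ D.diagonalSubgroup F := by
  have hxu : ∀ r < D.nroots, ∀ a b : F, C.xu r a = C.xu r b → a = b := fun r hr a b e => by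
    have h : C.xu r (a - b) = 1 := by
      rw [sub_eq_add_neg, ← C.xu_add, ← C.xu_inv, e, mul_inv_cancel]
    exact sub_eq_zero.mp (C.xu_eq_one hr h)
  have hfixU : ∀ u ∈ D.posUnipotent F, t * u * t⁻¹ = u → u = 1 := by
    intro u hu he
    obtain ⟨f, -, rfl⟩ := C.exists_prodU C.closedSet_pos (g := u) hu
    have hwu : ∀ L : List (ℕ × F), (∀ p ∈ L, p.1 < D.nroots) →
        t * C.wu L * t⁻¹ = C.wu (L.map fun p => (p.1, χ p.1 * p.2)) := by
      intro L hL
      induction L with
      | nil => simp [Cert.wu]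
      | cons p L ih =>
        rw [List.map_cons, C.wu_cons, C.wu_cons, ← hconj p.1 (hL p List.mem_cons_self),
          ← ih fun q hq => hL q (List.mem_cons_of_mem _ hq)]
        group
    have e1 : C.prodU (fun r => χ r * f r) = C.prodU f := by
      refine Eq.trans ?_ he
      rw [Cert.prodU, Cert.prodU, hwu]
      · rw [List.map_map]; rfl
      · intro p hp
        obtain ⟨r, hr, rfl⟩ := List.mem_map.mp hp
        exact (Cert.mem_posRoots.mp hr).1
    have e2 : C.prodU f = C.prodU (fun _ => (0 : F)) := by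
      have hz : ∀ r, D.IsPosRoot r → f r = 0 := fun r hr => by
        have h := C.prodU_inj e1 r hr
        have : (χ r - 1) * f r = 0 := by rw [sub_mul, one_mul, h, sub_self]
        exact (mul_eq_zero.mp this).resolve_left (sub_ne_zero.mpr (hne r hr.1))
      rw [Cert.prodU, Cert.prodU]
      congr 1
      exact List.map_congr_left fun r hr => by rw [hz r (Cert.mem_posRoots.mp hr)]
    rw [e2, C.prodU_zero]
  obtain ⟨n, hn, b₀, hb₀, b₁, hb₁, e⟩ := C.exists_bruhat hM hy
  obtain ⟨b, hb, u, hu, rfl⟩ := C.exists_canonical hM hn (g := y) ⟨b₀, hb₀, b₁, hb₁, e⟩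
  obtain ⟨a, ha, d, hd, rfl⟩ := C.mem_borel.mp hb
  set h := t * (n * t⁻¹ * n⁻¹) with hh
  have hhD : h ∈ D.diagonalSubgroup F := mul_mem ht (C.monomial_conj_diagonal hn (inv_mem ht))
  have hta : t * a * t⁻¹ ∈ D.posUnipotent F :=
    (Subgroup.mem_normalizer_iff.mp (C.posUnipotent_normalised ht) a).mp ha
  have hb' : t * a * t⁻¹ * (d * h) ∈ D.borelSubgroup F :=
    mul_mem (C.pos_le_borel hta) (C.diagonal_le_borel (mul_mem hd hhD))
  have hu' : t * u * t⁻¹ ∈ spanGroup D F (Inverts D F n) := by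
    have : spanGroup D F (Inverts D F n) ≤
        (spanGroup D F (Inverts D F n)).comap (MulAut.conj t).toMonoidHom := by
      refine C.span_le fun r hr x => ?_
      rw [Subgroup.mem_comap, MulEquiv.coe_toMonoidHom, MulAut.conj_apply]
      rw [hconj r hr.1.1]
      exact C.xu_mem_span hr _
    exact this hu
  have heq : a * d * n * u = t * a * t⁻¹ * (d * h) * n * (t * u * t⁻¹) := by
    calc a * d * n * u = t * (a * d * n * u) * t⁻¹ := by rw [hc, mul_inv_cancel_right]
      _ = t * a * t⁻¹ * (t * d) * n * (u * t⁻¹) := by group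
      _ = _ := by rw [C.diagonal_comm ht hd, hh]; group
  obtain ⟨eb, eu⟩ := C.canonical_unique (mul_mem (C.pos_le_borel ha) (C.diagonal_le_borel hd)) hb' hu hu' heq
  have hu1 : u = 1 := hfixU u (C.span_mono (fun r hr => hr.1) hu) eu.symm
  have hbot : (t * a * t⁻¹)⁻¹ * a = d * h * d⁻¹ := by
    calc (t * a * t⁻¹)⁻¹ * a = (t * a * t⁻¹)⁻¹ * (a * d) * d⁻¹ := by group
      _ = _ := by rw [eb]; group
  have hone : (t * a * t⁻¹)⁻¹ * a = 1 := by
    rw [← Subgroup.mem_bot, ← C.posUnipotent_inf_diagonal (F := F)]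
    exact Subgroup.mem_inf.mpr ⟨mul_mem (inv_mem hta) ha, hbot ▸ mul_mem (mul_mem hd hhD) (inv_mem hd)⟩
  have ha1 : a = 1 := hfixU a ha (inv_mul_eq_one.mp hone)
  have hh1 : h = 1 := by
    have : d * h * d⁻¹ = 1 := by rw [← hbot, hone]
    exact mul_left_cancel (a := d) (mul_right_cancel (b := d⁻¹) (by rw [this]; group))
  have htn : t * n = n * t := by
    have : t * (n * t⁻¹ * n⁻¹) = 1 := hh1
    calc t * n = (t * (n * t⁻¹ * n⁻¹)) * (n * t) := by group
      _ = n * t := by rw [this, one_mul]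
  obtain ⟨L, ⟨k, hk, rfl⟩, hmap⟩ := C.monomial_conj_xu hM hn
  have hfix : ∀ r < D.nroots, act D (L.map Fin.val) r = r := by
    intro r hr
    obtain ⟨c, hc0, ec⟩ := hmap r hr
    have hlt : act D (L.map Fin.val) r < D.nroots := C.act_lt (C.fin_word_lt L) hr
    generalize hn' : C.nWordElt F (L.map Fin.val) * k = n at ec htn
    have e1 : t * (n * C.xu r 1 * n⁻¹) * t⁻¹ = n * (t * C.xu r 1 * t⁻¹) * n⁻¹ := by
      calc t * (n * C.xu r 1 * n⁻¹) * t⁻¹ = (t * n) * C.xu r 1 * (t * n)⁻¹ := by group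
        _ = (n * t) * C.xu r 1 * (n * t)⁻¹ := by rw [htn]
        _ = _ := by group
    rw [hconj r hr, ec, ec, hconj _ hlt] at e1
    have e2 := hxu _ hlt _ _ e1
    apply hinj _ hlt r hr
    exact mul_right_cancel₀ hc0 (by linear_combination e2)
  rw [ha1, hu1, one_mul, mul_one]
  exact mul_mem hd (mul_mem (C.nWordElt_mem_diagonal hM hfix) hk)

end general

variable {F : Type u} [Field F]

/-- the weights of the three groups of coordinates -/
def wt (d : Fin 3 → F) : J → F :=
  Sum.elim (fun p => d p.1 * (d p.2)⁻¹) (Sum.elim d fun a => (d a)⁻¹)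

/-- the character of a diagonal matrix -/
def chi (d : Fin 3 → F) (s : ℕ) : F := if h : s < 12 then wt d (pos ⟨s, h⟩) else 1

theorem big_diagonal {d : Fin 3 → F} (hd : d 0 * d 1 * d 2 = 1) :
    big (Matrix.diagonal d) = Matrix.diagonal (wt d) := by
  have h0 : d 0 ≠ 0 := by intro h; rw [h] at hd; simp at hd
  have h1 : d 1 ≠ 0 := by intro h; rw [h] at hd; simp at hd
  have h2 : d 2 ≠ 0 := by intro h; rw [h] at hd; simp at hd
  have hne : ∀ i, d i ≠ 0 := by intro i; fin_cases i <;> assumption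
  have hadj : Matrix.adjugate (Matrix.diagonal d) = Matrix.diagonal (fun i => (d i)⁻¹) := by
    have e : Matrix.diagonal d * Matrix.diagonal (fun i => (d i)⁻¹) = 1 := by
      rw [Matrix.diagonal_mul_diagonal, ← Matrix.diagonal_one]
      congr 1
      funext i
      exact mul_inv_cancel₀ (hne i)
    calc Matrix.adjugate (Matrix.diagonal d)
        = Matrix.adjugate (Matrix.diagonal d) *
            (Matrix.diagonal d * Matrix.diagonal (fun i => (d i)⁻¹)) := by rw [e, Matrix.mul_one]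
      _ = _ := by rw [← Matrix.mul_assoc, Matrix.adjugate_mul, Matrix.det_diagonal, Fin.prod_univ_three, hd,
            one_smul, Matrix.one_mul]
  rw [big, hadj, Matrix.diagonal_transpose, Matrix.diagonal_kronecker_diagonal,
    Matrix.fromBlocks_diagonal, Matrix.fromBlocks_diagonal]
  rfl

theorem B0_dataL : ∀ k : Fin 2, ∀ j : J, B0 j (.inl k) ≠ 0 →
    j = .inl (0, 0) ∨ j = .inl (1, 1) ∨ j = .inl (2, 2) := by decide +kernel

theorem B0_dataR : ∀ s : Fin 12, ∀ j : J, B0 j (.inr s) ≠ 0 → j = pos s := by decide +kernel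

theorem phi_diagonal {d : Fin 3 → F} (hd : d 0 * d 1 * d 2 = 1) :
    phi (Matrix.diagonal d) = dMat chevG2 (chi d) := by
  have h0 : d 0 ≠ 0 := by intro h; rw [h] at hd; simp at hd
  have h1 : d 1 ≠ 0 := by intro h; rw [h] at hd; simp at hd
  have h2 : d 2 ≠ 0 := by intro h; rw [h] at hd; simp at hd
  have e : Matrix.diagonal (wt d) * castM F B0 = castM F B0 * dMat chevG2 (chi d) := by
    ext j x
    rw [Matrix.diagonal_mul, dMat, Matrix.mul_diagonal]
    by_cases hj : B0 j x = 0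
    · simp [castM, hj]
    · rcases x with k | s
      · rcases B0_dataL k j hj with rfl | rfl | rfl <;> simp [wt, h0, h1, h2]
      · obtain rfl : j = pos s := B0_dataR s j hj
        have hs : (s : ℕ) < 12 := s.isLt
        simp only [chi, Sum.elim_inr, dif_pos hs, Fin.eta]
        exact mul_comm _ _
  rw [phi, big_diagonal hd, Matrix.mul_assoc, e, ← Matrix.mul_assoc, ← cM_mul, C0_mul_B0, cM_one,
    Matrix.one_mul]

theorem torus_char (c0 c1 : F) (h0 : c0 ≠ 0) (h1 : c1 ≠ 0) : ∀ s < 12,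
    chi ![c1 / c0, c0 ^ 2 / c1, c0⁻¹] s = c0 ^ chevG2.cartan 0 s * c1 ^ chevG2.cartan 1 s := by
  intro s hs
  interval_cases s <;> simp [chi, wt, pos, ChevalleyDatum.cartan, chevG2, chevG2CartanSR, zpow_ofNat] <;>
    field_simp <;> ring

theorem diagonal_iff (C : Cert.{u} chevG2) {g : GL chevG2.Idx F} :
    g ∈ chevG2.diagonalSubgroup F ↔
      ∃ d : Fin 3 → F, d 0 * d 1 * d 2 = 1 ∧ (g : Matrix chevG2.Idx chevG2.Idx F) = phi (Matrix.diagonal d) := by
  rw [C.mem_diagonal_iff]
  have key : ∀ c : ℕ → F, (∀ k < chevG2.rank, c k ≠ 0) →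
      (C.torusElt c : Matrix chevG2.Idx chevG2.Idx F) =
        phi (Matrix.diagonal ![c 1 / c 0, c 0 ^ 2 / c 1, (c 0)⁻¹]) := by
    intro c hc
    have h0 : c 0 ≠ 0 := hc 0 (by decide)
    have h1 : c 1 ≠ 0 := hc 1 (by decide)
    rw [C.coe_torusElt hc, phi_diagonal (by simp; field_simp)]
    refine dMat_congr fun s hs => ?_
    rw [torus_char _ _ h0 h1 s hs]
    simp [show chevG2.rank = 2 from rfl, Finset.prod_range_succ, cartChar]
  constructor
  · rintro ⟨c, hc, rfl⟩
    refine ⟨_, ?_, key c hc⟩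
    have h0 : c 0 ≠ 0 := hc 0 (by decide)
    have h1 : c 1 ≠ 0 := hc 1 (by decide)
    simp; field_simp
  · rintro ⟨d, hd, e⟩
    have h0 : d 0 ≠ 0 := by intro h; rw [h] at hd; simp at hd
    have h1 : d 1 ≠ 0 := by intro h; rw [h] at hd; simp at hd
    have h2 : d 2 = (d 0 * d 1)⁻¹ := eq_inv_of_mul_eq_one_right hd
    let c : ℕ → F := fun k => if k = 0 then d 0 * d 1 else d 0 * (d 0 * d 1)
    have hc : ∀ k < chevG2.rank, c k ≠ 0 := fun k _ => by
      simp only [c]; split <;> simp [h0, h1]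
    refine ⟨c, hc, Units.ext ?_⟩
    rw [key c hc, e]
    congr 2
    funext i
    fin_cases i <;> simp [c, h2] <;> field_simp

end Cfsg.Agent.KnownA.G2Sing
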